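import Cfsg.Agent.PrimDeg.Common

/-!
Doubly transitive groups containing an element of small support.

If a doubly transitive group contains `x ≠ 1` moving `s` points with `3 s < N`, then averaging over
the conjugates of `x` (first and second moment, one-sided Chebyshev bound) gives a non-trivial
commutator with smaller support under the condition `DescentCond N s`; when `s ^ 2 < N` it gives a
three-cycle.
-/

set_option autoImplicit false

namespace Cfsg.Agent.ProdAct

open Equiv Finset

variable {Ω : Type*} [Fintype Ω] [DecidableEq Ω]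

/-- The commutator of two permutations moves at most three times as many points as the common part
of their supports. -/
theorem support_commutator_subset (x y : Perm Ω) :
    (x * y * x⁻¹ * y⁻¹).support ⊆
      (x.support ∩ y.support) ∪ (x.support ∩ y.support).image x ∪
        (x.support ∩ y.support).image y := by
  intro z hz
  by_contra hc
  simp only [mem_union, mem_image, mem_inter, not_or, not_exists, not_and] at hc
  obtain ⟨⟨h0, h1⟩, h2⟩ := hc
  apply Perm.mem_support.1 hz
  simp only [Perm.mul_apply]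
  by_cases hzx : z ∈ x.support
  · have hy : y z = z := Perm.notMem_support.1 (h0 hzx)
    have hy' : y⁻¹ z = z := by rw [Perm.inv_eq_iff_eq, hy]
    rw [hy']
    have hw : x⁻¹ z ∈ x.support := by rw [← Perm.apply_mem_support (f := x)]; simpa using hzx
    have hwy : y (x⁻¹ z) = x⁻¹ z :=
      Perm.notMem_support.1 fun h => h1 (x⁻¹ z) ⟨hw, h⟩ (by simp)
    rw [hwy]; simp
  · have hx : x z = z := Perm.notMem_support.1 hzx
    by_cases hzy : z ∈ y.support
    · have hw : y⁻¹ z ∈ y.support := by rw [← Perm.apply_mem_support (f := y)]; simpa using hzy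
      have hwx : x (y⁻¹ z) = y⁻¹ z :=
        Perm.notMem_support.1 fun h => h2 (y⁻¹ z) ⟨h, hw⟩ (by simp)
      have : x⁻¹ (y⁻¹ z) = y⁻¹ z := by rw [Perm.inv_eq_iff_eq, hwx]
      rw [this]
      simpa using hx
    · have hy : y z = z := Perm.notMem_support.1 hzy
      rw [show y⁻¹ z = z by rw [Perm.inv_eq_iff_eq, hy],
        show x⁻¹ z = z by rw [Perm.inv_eq_iff_eq, hx], hy, hx]

theorem card_support_commutator_le (x y : Perm Ω) :
    (x * y * x⁻¹ * y⁻¹).support.card ≤ 3 * (x.support ∩ y.support).card := by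
  refine (card_le_card (support_commutator_subset x y)).trans ((card_union_le _ _).trans ?_)
  have h1 := (card_union_le (x.support ∩ y.support) ((x.support ∩ y.support).image x)).trans
    (Nat.add_le_add_left card_image_le _)
  have h2 := card_image_le (s := x.support ∩ y.support) (f := y)
  omega

/-- The numerical condition for a descent step from support `s` in degree `N`. -/
def DescentCond (N s : ℕ) : Prop :=
  3 * s < N ∧
  3 * (N : ℤ) * ((N : ℤ) - 1) * ((N : ℤ) - s)
    < 9 * (s : ℤ) * ((N : ℤ) - s) ^ 2 + (s : ℤ) * ((N : ℤ) - 3 * s) ^ 2 * ((N : ℤ) - 1) ∧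
  ((N : ℤ) - 3 * s) ^ 2 * ((N : ℤ) - 1) + 9 * ((N : ℤ) - s) ^ 2
    ≤ 2 * (N : ℤ) * ((N : ℤ) - 1) * ((N : ℤ) - 3 * s)

variable {G : Type*} [Group G] [Fintype G] [MulAction G Ω]

/-- Number of elements with two prescribed images. -/
theorem exists_pair_count
    (h2 : ∀ a a' b b' : Ω, a ≠ a' → b ≠ b' → ∃ h : G, h • a = b ∧ h • a' = b')
    {u v : Ω} (huv : u ≠ v) :
    ∃ M : ℕ, 0 < M ∧ ∀ a a' b b' : Ω, a ≠ a' → b ≠ b' →
      (univ.filter fun h : G => h • a = b ∧ h • a' = b').card = M := by
  classical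
  refine ⟨(univ.filter fun h : G => h • u = u ∧ h • v = v).card, card_pos.2 ⟨1, by simp⟩, ?_⟩
  intro a a' b b' ha hb
  obtain ⟨k, hk, hk'⟩ := h2 u v a a' huv ha
  obtain ⟨l, hl, hl'⟩ := h2 u v b b' huv hb
  refine card_bij (fun h _ => l⁻¹ * h * k) ?_ ?_ ?_
  · intro h hh
    simp only [mem_filter, mem_univ, true_and] at hh ⊢
    constructor
    · rw [mul_smul, mul_smul, hk, hh.1, ← hl, inv_smul_smul]
    · rw [mul_smul, mul_smul, hk', hh.2, ← hl', inv_smul_smul]
  · intro x _ y _ e; simpa using e
  · intro h hh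
    simp only [mem_filter, mem_univ, true_and] at hh
    refine ⟨l * h * k⁻¹, ?_, by group⟩
    simp [mul_smul, ← hk, ← hk', hh.1, hh.2, hl, hl']

/-- Number of elements sending a pair of distinct points into two given sets. -/
theorem count_pair_into {M : ℕ}
    (hM : ∀ a a' b b' : Ω, a ≠ a' → b ≠ b' →
      (univ.filter fun h : G => h • a = b ∧ h • a' = b').card = M)
    {a a' : Ω} (ha : a ≠ a') (A B : Finset Ω) :
    (univ.filter fun h : G => h • a ∈ A ∧ h • a' ∈ B).card
      = ((A ×ˢ B).filter fun q => q.1 ≠ q.2).card * M := by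
  classical
  rw [card_eq_sum_card_fiberwise (f := fun h : G => (h • a, h • a'))
    (t := (A ×ˢ B).filter fun q => q.1 ≠ q.2)]
  · rw [sum_congr rfl (g := fun _ => M)]
    · simp
    · rintro ⟨b, b'⟩ hb
      simp only [mem_filter, mem_product] at hb
      rw [filter_filter, ← hM a a' b b' ha hb.2]
      congr 1
      ext h
      simp only [mem_filter, mem_univ, true_and, Prod.ext_iff]
      constructor
      · exact fun h' => h'.2
      · rintro ⟨e1, e2⟩
        exact ⟨⟨e1 ▸ hb.1.1, e2 ▸ hb.1.2⟩, e1, e2⟩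
  · intro h hh
    simp only [coe_filter, mem_univ, true_and, Set.mem_ofPred_eq, mem_product] at hh ⊢
    exact ⟨hh, fun e => ha (MulAction.injective h e)⟩

/-- The descent step. -/
theorem exists_smaller
    (h2 : ∀ a a' b b' : Ω, a ≠ a' → b ≠ b' → ∃ h : G, h • a = b ∧ h • a' = b')
    (x : Perm Ω) (hx : x ≠ 1) (hgood : DescentCond (Fintype.card Ω) x.support.card) :
    ∃ g : G, let y := (MulAction.toPerm g)⁻¹ * x * MulAction.toPerm g
      x * y * x⁻¹ * y⁻¹ ≠ 1 ∧ (x * y * x⁻¹ * y⁻¹).support.card < x.support.card := by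
  classical
  by_contra hno
  simp only [not_exists, not_and, not_lt] at hno
  set U := x.support with hU
  obtain ⟨u, hu⟩ : U.Nonempty := by
    rw [nonempty_iff_ne_empty]; simpa [hU] using hx
  have hxu : x u ≠ u := Perm.mem_support.1 hu
  obtain ⟨M, hMpos, hM⟩ := exists_pair_count h2 hxu.symm
  set s := U.card with hs
  set N := Fintype.card Ω with hN
  -- the two random variables
  let I : G → ℕ := fun g => (U.filter fun z => g • z ∈ U).card
  let J : G → ℕ := fun g => (U.filter fun z => g • z ∈ U ∧ g • x z ∈ Uᶜ).card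
  -- counting
  have hcard1 : ∀ a : Ω, a ∈ U →
      (univ.filter fun h : G => h • a ∈ U).card = s * (N - 1) * M := by
    intro a ha
    have hax : a ≠ x a := (Perm.mem_support.1 ha).symm
    have := count_pair_into hM hax U (univ : Finset Ω)
    simp only [mem_univ, and_true] at this
    rw [this]
    congr 1
    rw [card_filter, sum_product, sum_congr rfl (g := fun _ => N - 1)]
    · simp [hs]
    · intro b _
      rw [← card_filter]
      simp [filter_ne, hN]
  have hcard2 : ∀ a b : Ω, a ≠ b →
      (univ.filter fun h : G => h • a ∈ U ∧ h • b ∈ U).card = (s * s - s) * M := by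
    intro a b hab
    rw [count_pair_into hM hab U U]
    congr 1
    rw [hs, ← offDiag_card]
    congr 1
    ext q
    simp [mem_offDiag, and_assoc]
  have hcard3 : ∀ a : Ω, a ∈ U →
      (univ.filter fun h : G => h • a ∈ U ∧ h • x a ∈ Uᶜ).card = s * (N - s) * M := by
    intro a ha
    rw [count_pair_into hM (Perm.mem_support.1 ha).symm U Uᶜ]
    congr 1
    rw [filter_true_of_mem]
    · rw [card_product, card_compl]
    · intro q hq e
      simp only [mem_product, mem_compl] at hq
      exact hq.2 (e ▸ hq.1)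
  have hsumI : ∑ g : G, I g = s * (s * (N - 1) * M) := by
    simp only [I, card_filter]
    rw [sum_comm, sum_congr rfl (g := fun _ => s * (N - 1) * M)]
    · simp [hs]
    · intro a ha
      rw [← card_filter]
      exact hcard1 a ha
  have hsumJ : ∑ g : G, J g = s * (s * (N - s) * M) := by
    simp only [J, card_filter]
    rw [sum_comm, sum_congr rfl (g := fun _ => s * (N - s) * M)]
    · simp [hs]
    · intro a ha
      rw [← card_filter]
      exact hcard3 a ha
  have hsumII : ∑ g : G, I g * I g = s * (s * (N - 1) * M) + (s * s - s) * ((s * s - s) * M) := by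
    have e : ∀ g : G, I g * I g = I g + (U.filter fun z => g • z ∈ U).offDiag.card := by
      intro g
      rw [offDiag_card]
      show _ = I g + (I g * I g - I g)
      have := Nat.le_mul_self (I g)
      omega
    simp only [e, sum_add_distrib, hsumI]
    congr 1
    have e2 : ∀ g : G, (U.filter fun z => g • z ∈ U).offDiag
        = U.offDiag.filter fun q => g • q.1 ∈ U ∧ g • q.2 ∈ U := by
      intro g
      ext q
      simp only [mem_offDiag, mem_filter]
      tauto
    simp only [e2, card_filter]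
    rw [sum_comm, sum_congr rfl (g := fun _ => (s * s - s) * M)]
    · simp [offDiag_card, hs]
    · intro q hq
      rw [← card_filter]
      exact hcard2 q.1 q.2 (mem_offDiag.1 hq).2.2
  have hG : Fintype.card G = N * (N - 1) * M := by
    have := count_pair_into hM hxu.symm (univ : Finset Ω) (univ : Finset Ω)
    simp only [mem_univ, and_self, filter_true, card_univ] at this
    rw [this]
    congr 1
    rw [card_filter, sum_product, sum_congr rfl (g := fun _ => N - 1)]
    · simp [hN]
    · intro b _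
      rw [← card_filter]
      simp [filter_ne, hN]
  -- the pointwise inequality
  obtain ⟨h3, hg, hQA⟩ := hgood
  set D : ℤ := (N : ℤ) - 3 * s with hDdef
  set Q : ℤ := D ^ 2 * ((N : ℤ) - 1) + 9 * ((N : ℤ) - s) ^ 2 with hQdef
  set A : ℤ := (N : ℤ) * ((N : ℤ) - 1) * D with hAdef
  set R0 : ℤ := 3 * (s : ℤ) * s * ((N : ℤ) - 1) * D - 9 * s * ((N : ℤ) - s) ^ 2 with hR0
  have hD : 0 < D := by
    have : ((3 * s : ℕ) : ℤ) < N := by exact_mod_cast h3
    rw [hDdef]; push_cast at this; linarith
  have hN1z : (0 : ℤ) ≤ (N : ℤ) - 1 := by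
    have : (1 : ℤ) ≤ N := by exact_mod_cast Fintype.card_pos_iff.2 ⟨u⟩
    linarith
  have hQ0 : 0 ≤ Q := by rw [hQdef]; positivity
  have hQA' : Q ≤ 2 * A := by rw [hAdef]; linarith
  have hkey : ∀ g : G, 3 * (s : ℤ) * Q ^ 2 * J g ≤ (3 * A * I g - R0) ^ 2 := by
    intro g
    rcases Nat.eq_zero_or_pos (J g) with hJ | hJ
    · rw [hJ]; push_cast; nlinarith [sq_nonneg (3 * A * (I g : ℤ) - R0)]
    · set y := (MulAction.toPerm g)⁻¹ * x * MulAction.toPerm g with hy
      have hsy : x.support ∩ y.support = U.filter fun z => g • z ∈ U := by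
        ext z
        simp [hy, hU, inv_smul_eq_iff]
      have hne : x * y * x⁻¹ * y⁻¹ ≠ 1 := by
        intro e
        have hc : x * y = y * x := by
          rwa [mul_inv_eq_one, mul_inv_eq_iff_eq_mul] at e
        obtain ⟨z, hz⟩ := card_pos.1 hJ
        simp only [mem_filter, mem_compl] at hz
        obtain ⟨hz1, hz2, hz3⟩ := hz
        have hyx : y (x z) = x z := by
          rw [hy]
          simp only [Perm.mul_apply, MulAction.toPerm_apply]
          rw [Perm.notMem_support.1 hz3]
          simp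
        have hyz : y z ≠ z := by
          rw [← Perm.mem_support]
          have : z ∈ x.support ∩ y.support := by rw [hsy]; simp [hz1, hz2]
          exact (mem_inter.1 this).2
        have h4 : x (y z) = y (x z) := by rw [← Perm.mul_apply, hc, Perm.mul_apply]
        rw [hyx] at h4
        exact hyz (x.injective h4)
      have hle : s ≤ 3 * I g := by
        refine le_trans (hno g hne) ((card_support_commutator_le x y).trans ?_)
        rw [hsy]
      have hJI : J g ≤ I g := card_le_card fun z hz => by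
        simp only [mem_filter] at hz ⊢; exact ⟨hz.1, hz.2.1⟩
      have hle' : (s : ℤ) ≤ 3 * I g := by exact_mod_cast hle
      have hJI' : (J g : ℤ) ≤ I g := by exact_mod_cast hJI
      have hs0 : (0 : ℤ) ≤ s := Int.natCast_nonneg _
      have e : 3 * A * (I g : ℤ) - R0 = (3 * (I g : ℤ) - s) * A + s * Q := by
        rw [hAdef, hR0, hQdef, hDdef]; ring
      rw [e]
      have he : 0 ≤ 3 * (I g : ℤ) - s := by linarith
      have hI : 3 * (s : ℤ) * Q ^ 2 * J g ≤ (s : ℤ) * Q ^ 2 * ((3 * (I g : ℤ) - s) + s) := by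
        nlinarith [mul_le_mul_of_nonneg_left hJI' (by positivity : (0 : ℤ) ≤ 3 * s * Q ^ 2)]
      nlinarith [mul_nonneg (mul_nonneg he hs0) (mul_nonneg hQ0 (sub_nonneg.2 hQA')),
        sq_nonneg ((3 * (I g : ℤ) - s) * A)]
  -- summation
  have hsum := sum_le_sum fun g (_ : g ∈ (univ : Finset G)) => hkey g
  have hsN : s ≤ N := card_le_univ _
  have hN1 : 1 ≤ N := Fintype.card_pos_iff.2 ⟨u⟩
  have hss : s ≤ s * s := Nat.le_mul_self s
  have eI : ∑ g : G, (I g : ℤ) = (s : ℤ) * (s * ((N : ℤ) - 1) * M) := by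
    rw [← Nat.cast_sum, hsumI]; push_cast [Nat.cast_sub hN1]; ring
  have eII : ∑ g : G, (I g : ℤ) * I g
      = (s : ℤ) * (s * ((N : ℤ) - 1) * M) + ((s : ℤ) * s - s) * (((s : ℤ) * s - s) * M) := by
    have := congrArg (fun n : ℕ => (n : ℤ)) hsumII
    push_cast [Nat.cast_sub hN1, Nat.cast_sub hss] at this
    linarith
  have eJ : ∑ g : G, (J g : ℤ) = (s : ℤ) * (s * ((N : ℤ) - s) * M) := by
    rw [← Nat.cast_sum, hsumJ]; push_cast [Nat.cast_sub hsN]; ring
  have eG : ((univ : Finset G).card : ℤ) = (N : ℤ) * ((N : ℤ) - 1) * M := by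
    rw [card_univ, hG]; push_cast [Nat.cast_sub hN1]; ring
  have e3 : ∀ g : G, (3 * A * (I g : ℤ) - R0) ^ 2
      = 9 * A ^ 2 * ((I g : ℤ) * I g) - 6 * A * R0 * I g + R0 ^ 2 :=
    fun g => by ring
  simp only [e3, sum_add_distrib, sum_sub_distrib, ← mul_sum, sum_const,
    nsmul_eq_mul, eI, eII, eJ, eG] at hsum
  have hM0 : (0 : ℤ) < M := by exact_mod_cast hMpos
  have hs1 : (0 : ℤ) < s := by exact_mod_cast card_pos.2 ⟨u, hu⟩
  have hNs : (0 : ℤ) < (N : ℤ) - s := by rw [hDdef] at hD; linarith
  have hQpos : 0 < Q := by rw [hQdef]; positivity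
  have hrhs : 9 * A ^ 2 * ((s : ℤ) * (s * ((N : ℤ) - 1) * M)
        + ((s : ℤ) * s - s) * (((s : ℤ) * s - s) * M))
      - 6 * A * R0 * ((s : ℤ) * (s * ((N : ℤ) - 1) * M))
      + (N : ℤ) * ((N : ℤ) - 1) * M * R0 ^ 2
      = 9 * M * (N : ℤ) * ((N : ℤ) - 1) * s ^ 2 * ((N : ℤ) - s) ^ 2 * Q := by
    rw [hAdef, hR0, hQdef, hDdef]; ring
  rw [hrhs] at hsum
  have hlt : 3 * (N : ℤ) * ((N : ℤ) - 1) * ((N : ℤ) - s) < s * Q := by
    rw [hQdef]; linarith
  have hpos : 0 < 3 * (M : ℤ) * s ^ 2 * ((N : ℤ) - s) * Q := by positivity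
  nlinarith [mul_lt_mul_of_pos_left hlt hpos, hsum]

/-- A doubly transitive group of degree `N` containing a non-trivial element moving `s` points with
a small support contains the alternating group, provided that the descent condition holds. -/
theorem alternatingGroup_le_of_small_support (H : Subgroup (Perm Ω))
    (h2 : ∀ a a' b b' : Ω, a ≠ a' → b ≠ b' → ∃ h ∈ H, h a = b ∧ h a' = b')
    (x : Perm Ω) (hxH : x ∈ H) (hx : x ≠ 1)
    (hgood : ∀ t, 2 ≤ t → t ≤ x.support.card → Fintype.card Ω ≤ t ^ 2 →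
      DescentCond (Fintype.card Ω) t) :
    alternatingGroup Ω ≤ H := by
  classical
  induction hs : x.support.card using Nat.strong_induction_on generalizing x with
  | _ s ih =>
  have hs2 : 2 ≤ x.support.card := Perm.two_le_card_support_of_ne_one hx
  have h2' : ∀ a a' b b' : Ω, a ≠ a' → b ≠ b' → ∃ h : H, h • a = b ∧ h • a' = b' := by
    intro a a' b b' ha hb
    obtain ⟨h, hh, e1, e2⟩ := h2 a a' b b' ha hb
    exact ⟨⟨h, hh⟩, e1, e2⟩
  have hperm : ∀ g : H, MulAction.toPerm g = (g : Perm Ω) := fun g => Equiv.ext fun _ => rfl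
  by_cases hbig : Fintype.card Ω ≤ x.support.card ^ 2
  · obtain ⟨g, hg1, hg2⟩ := exists_smaller h2' x hx (hgood _ hs2 le_rfl hbig)
    rw [hperm] at hg1 hg2
    have hy : (g : Perm Ω)⁻¹ * x * g ∈ H := H.mul_mem (H.mul_mem (H.inv_mem g.2) hxH) g.2
    refine ih _ (hs ▸ hg2) _ ?_ hg1 (fun t t1 t2 => hgood t t1 (by omega)) rfl
    exact H.mul_mem (H.mul_mem (H.mul_mem hxH hy) (H.inv_mem hxH)) (H.inv_mem hy)
  · obtain ⟨g, hg⟩ : ∃ g : H, (x.support.filter fun a => g • a ∈ x.support).card = 1 := by
      by_contra hno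
      exact hbig (PrimDeg.card_le_sq_of_two_transitive h2' x.support hs2 (not_exists.1 hno))
    obtain ⟨α, hα⟩ := card_eq_one.1 hg
    have hy : (g : Perm Ω)⁻¹ * x * g ∈ H := H.mul_mem (H.mul_mem (H.inv_mem g.2) hxH) g.2
    have hq : x.support ∩ ((g : Perm Ω)⁻¹ * x * g).support = {α} := by
      rw [← hα]
      ext z
      simp [Equiv.symm_apply_eq, Subgroup.smul_def]
    have h3c := PrimDeg.isThreeCycle_commutator_of_supports_meet_once _ _ α hq
    refine Perm.alternatingGroup_le_of_isPreprimitive_of_isThreeCycle_mem ?_ h3c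
      (H.mul_mem (H.mul_mem (H.mul_mem hxH hy) (H.inv_mem hxH)) (H.inv_mem hy))
    have : MulAction.IsMultiplyPretransitive H Ω 2 :=
      MulAction.is_two_pretransitive_iff.2 fun ha hb => h2' _ _ _ _ ha hb
    exact MulAction.isPreprimitive_of_is_two_pretransitive this

end Cfsg.Agent.ProdAct
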